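import Cfsg.Agent.H238.E8.Frame
import Cfsg.Agent.H64.E83.Lang
import Cfsg.Agent.H942.E8Tab

/-!
# Torus elements act on the matrix frame (helper988; S5925, box B, (T1), (T2))

* `tor_ph1`, `tor_ph2` : a torus element `s` acts on `ph_i (SL₅)` as the conjugation with a diagonal matrix, with
  `χ_r(s) = dl i / dl j` for the root `r = rt_i i j`.
* `dg_of_mem` : `ph1 A` in the torus only for a diagonal matrix `A`.
-/

set_option autoImplicit false
set_option linter.unusedSectionVars false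

namespace Cfsg.Agent.H988.E8

open Matrix Cfsg Cfsg.Lie Cfsg.Agent.ChevalleyStructure Cfsg.Agent.ChevalleyStructure.Elts
open Cfsg.Agent.TitsThree.KExcRT Cfsg.Agent.AGraded
open Cfsg.Agent.H992.E8X Cfsg.Agent.H238.E8 Cfsg.Agent.H64.E83
open CoxeterSystem Cfsg.Lie.ChevalleyDatum
open Cfsg.Agent.ChevalleyStructure.CoxeterGeom
  Cfsg.Agent.ChevalleyStructure.CoxeterGeomTypes Cfsg.Agent.ChevalleyStructure.NPerm
open Cfsg.Agent.Tits.Roots Cfsg.Agent.Tits.Core Cfsg.Agent.Nodes Cfsg.Agent.Nodes.Reps Cfsg.Agent.Nodes.BNOf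
  Cfsg.Agent.Nodes.RGDChev Cfsg.Agent.Nodes.Bruhat
open Cfsg.Agent.KFacts.RgdField Cfsg.Agent.KFacts.RgdChevCoord Cfsg.Agent.BpExc.TorCent Cfsg.Agent.BpExc.TorChev
open Cfsg.Agent.H129.TorusChar

/-- the vectors `E i` with `rt i j = E i - E j` -/
def EE (r : Fin 5 → Fin 5 → ℕ) (i : Fin 5) : Fin 8 → ℤ := if i = 4 then 0 else vec chevE8 8 (r i 4)

theorem EE1 : ∀ i j, i ≠ j → vec chevE8 8 (rt1 i j) = EE rt1 i - EE rt1 j := by decide +kernel
theorem EE2 : ∀ i j, i ≠ j → vec chevE8 8 (rt2 i j) = EE rt2 i - EE rt2 j := by decide +kernel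

section
universe u
variable {k : Type u} [Field k]

/-- conjugation with a diagonal matrix -/
def dconj (dl : Fin 5 → kˣ) : SpecialLinearGroup (Fin 5) k →* SpecialLinearGroup (Fin 5) k where
  toFun A := ⟨diagonal (fun i => (dl i : k)) * (A : Matrix (Fin 5) (Fin 5) k) * diagonal (fun i => (((dl i)⁻¹ : kˣ) : k)), by
    rw [det_mul, det_mul, A.2, mul_one, ← det_mul, diagonal_mul_diagonal]
    simp⟩
  map_one' := by
    apply Subtype.ext
    simp [diagonal_mul_diagonal]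
  map_mul' A B := by
    apply Subtype.ext
    have h : diagonal (fun i => (((dl i)⁻¹ : kˣ) : k)) * diagonal (fun i => (dl i : k)) = 1 := by
      rw [diagonal_mul_diagonal]
      simp
    show diagonal (fun i => (dl i : k)) * ((A : Matrix (Fin 5) (Fin 5) k) * (B : Matrix (Fin 5) (Fin 5) k)) *
      diagonal (fun i => (((dl i)⁻¹ : kˣ) : k)) = (diagonal (fun i => (dl i : k)) * (A : Matrix (Fin 5) (Fin 5) k) *
        diagonal (fun i => (((dl i)⁻¹ : kˣ) : k))) * (diagonal (fun i => (dl i : k)) * (B : Matrix (Fin 5) (Fin 5) k) *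
        diagonal (fun i => (((dl i)⁻¹ : kˣ) : k)))
    calc _ = diagonal (fun i => (dl i : k)) * (A : Matrix (Fin 5) (Fin 5) k) * 1 * ((B : Matrix (Fin 5) (Fin 5) k) *
      diagonal (fun i => (((dl i)⁻¹ : kˣ) : k))) := by simp only [Matrix.mul_assoc, Matrix.mul_one]
      _ = _ := by rw [← h]; simp only [Matrix.mul_assoc]

theorem dconj_apply (dl : Fin 5 → kˣ) (A : SpecialLinearGroup (Fin 5) k) (i j : Fin 5) :
    (dconj dl A : Matrix (Fin 5) (Fin 5) k) i j = dl i * (A : Matrix (Fin 5) (Fin 5) k) i j * ((dl j)⁻¹ : kˣ) := by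
  show (diagonal (fun i => (dl i : k)) * (A : Matrix (Fin 5) (Fin 5) k) *
        diagonal (fun i => (((dl i)⁻¹ : kˣ) : k))) i j = _
  rw [mul_diagonal, diagonal_mul]

theorem dconj_tv (dl : Fin 5 → kˣ) {i j : Fin 5} (hij : i ≠ j) (c : k) :
    dconj dl (SpecialLinearGroup.transvection hij c) =
      SpecialLinearGroup.transvection hij ((dl i : k) * c * ((dl j)⁻¹ : kˣ)) := by
  apply Subtype.ext
  ext a b
  rw [dconj_apply]
  show (dl a : k) * (Matrix.transvection i j c) a b * _ = (Matrix.transvection i j _) a b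
  simp only [Matrix.transvection, Matrix.add_apply, Matrix.one_apply, Matrix.single_apply]
  by_cases h1 : a = b
  · subst h1
    by_cases h2 : i = a ∧ j = a
    · exact absurd (h2.1.trans h2.2.symm) hij
    · rw [if_pos rfl, if_neg h2, if_neg h2, add_zero, mul_one, Units.mul_inv]
  · rw [if_neg h1, zero_add, zero_add]
    by_cases h2 : i = a ∧ j = b
    · obtain ⟨rfl, rfl⟩ := h2
      rw [if_pos ⟨rfl, rfl⟩, if_pos ⟨rfl, rfl⟩]
    · rw [if_neg h2, if_neg h2, mul_zero, zero_mul]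

/-- the action of the torus on a frame -/
theorem tor_aux {r : Fin 5 → Fin 5 → ℕ} {sg : Fin 5 → Fin 5 → ℤ}
    (hE : ∀ i j, i ≠ j → vec chevE8 8 (r i j) = EE r i - EE r j) (hlt : ∀ i j, r i j < 240)
    (φ : SpecialLinearGroup (Fin 5) k →* ↥(chevE8.group k))
    (hφ : ∀ {i j : Fin 5} (hij : i ≠ j) (c : k), φ (SpecialLinearGroup.transvection hij c) =
      X (r i j) ((sg i j : k) * c)) {s : ↥(chevE8.group k)} (hs : s ∈ TT chevE8 k) :
    ∃ dl : Fin 5 → kˣ, (∀ i j, i ≠ j → cX Cfsg.Agent.H942.E8Tab.e8T s (vec chevE8 8 (r i j)) = dl i / dl j) ∧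
      ∀ A, s * φ A * s⁻¹ = φ (dconj dl A) := by
  have hmc := isMC_cX Cfsg.Agent.H942.E8Tab.e8T hs
  have hX : ∀ i j (c : k), (X (r i j) c : ↥(chevE8.group k)) =
      xc Cfsg.Agent.H942.E8Tab.e8T (vec chevE8 8 (r i j)) c := by
    intro i j c
    apply Subtype.ext
    rw [coe_xc Cfsg.Agent.H942.E8Tab.e8T (hlt i j)]
    rfl
  let dl : Fin 5 → kˣ := fun i => Units.mk0 (cX Cfsg.Agent.H942.E8Tab.e8T s (EE r i)) (hmc.ne_zero _)
  have hdl : ∀ i j, i ≠ j → cX Cfsg.Agent.H942.E8Tab.e8T s (vec chevE8 8 (r i j)) = dl i / dl j := by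
    intro i j hij
    rw [hE i j hij, hmc.sub]
    rfl
  refine ⟨dl, hdl, fun A => ?_⟩
  refine tv_ind (fun A => s * φ A * s⁻¹ = φ (dconj dl A)) ?_ ?_ A
  · intro i j hij c
    rw [dconj_tv, hφ, hφ, hX, hX, (act Cfsg.Agent.H942.E8Tab.e8T (hlt i j) hs).2,
      ← cX_vec Cfsg.Agent.H942.E8Tab.e8T hs (hlt i j), hdl i j hij]
    congr 1
    rw [Units.val_inv_eq_inv_val]
    ring
  · intro A B hA hB
    rw [map_mul, map_mul, map_mul, ← hA, ← hB]
    group

/-- **(T1)** for the second factor -/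
theorem tor_ph2 {s : ↥(chevE8.group k)} (hs : s ∈ TT chevE8 k) :
    ∃ dl : Fin 5 → kˣ, (∀ i j, i ≠ j → cX Cfsg.Agent.H942.E8Tab.e8T s (vec chevE8 8 (rt2 i j)) = dl i / dl j) ∧
      ∀ A B : SpecialLinearGroup (Fin 5) k, (∀ i j, (B : Matrix (Fin 5) (Fin 5) k) i j =
        dl i * (A : Matrix (Fin 5) (Fin 5) k) i j * (dl j : k)⁻¹) → s * ph2 k A * s⁻¹ = ph2 k B := by
  obtain ⟨dl, h1, h2⟩ := tor_aux EE2 rt2_lt (ph2 k) (sg := sg2) (fun hij c => ph2_tv k hij c) hs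
  refine ⟨dl, h1, fun A B h => ?_⟩
  rw [h2]
  congr 1
  apply Subtype.ext
  ext i j
  rw [dconj_apply, h, Units.val_inv_eq_inv_val]

/-- **(T1)** for the first factor -/
theorem tor_ph1 {s : ↥(chevE8.group k)} (hs : s ∈ TT chevE8 k) :
    ∃ dl : Fin 5 → kˣ, (∀ i j, i ≠ j → cX Cfsg.Agent.H942.E8Tab.e8T s (vec chevE8 8 (rt1 i j)) = dl i / dl j) ∧
      ∀ A B : SpecialLinearGroup (Fin 5) k, (∀ i j, (B : Matrix (Fin 5) (Fin 5) k) i j =
        dl i * (A : Matrix (Fin 5) (Fin 5) k) i j * (dl j : k)⁻¹) → s * ph1 k A * s⁻¹ = ph1 k B := by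
  obtain ⟨dl, h1, h2⟩ := tor_aux EE1 rt1_lt (ph1 k) (sg := sg1) (fun hij c => ph1_tv k hij c) hs
  refine ⟨dl, h1, fun A B h => ?_⟩
  rw [h2]
  congr 1
  apply Subtype.ext
  ext i j
  rw [dconj_apply, h, Units.val_inv_eq_inv_val]

/-- a matrix which acts on the transvections as a diagonal matrix is diagonal -/
theorem dg_of_dconj {A : SpecialLinearGroup (Fin 5) k} {dl : Fin 5 → kˣ}
    (h : ∀ B, A * B * A⁻¹ = dconj dl B) : IsDg A := by
  intro a i hai
  obtain ⟨j, hj⟩ : ∃ j : Fin 5, i ≠ j := (by decide : ∀ i : Fin 5, ∃ j, i ≠ j) i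
  have h1 : A * SpecialLinearGroup.transvection hj (1 : k) =
      dconj dl (SpecialLinearGroup.transvection hj (1 : k)) * A := by
    rw [← h]; group
  rw [dconj_tv] at h1
  have h2 : (A : Matrix (Fin 5) (Fin 5) k) * Matrix.transvection i j 1 =
      Matrix.transvection i j ((dl i : k) * 1 * ((dl j)⁻¹ : kˣ)) * (A : Matrix (Fin 5) (Fin 5) k) :=
    congrArg (fun M : SpecialLinearGroup (Fin 5) k => (M : Matrix (Fin 5) (Fin 5) k)) h1
  have h3 := congrFun (congrFun h2 a) j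
  rw [Matrix.mul_transvection_apply_same, Matrix.transvection_mul_apply_of_ne _ _ _ _ hai, one_mul] at h3
  exact left_eq_add.1 h3.symm

/-- **(T2)** -/
theorem dg_of_mem (hinj : Function.Injective (ph1 k)) {A : SpecialLinearGroup (Fin 5) k}
    (h : ph1 k A ∈ TT chevE8 k) : IsDg A := by
  obtain ⟨dl, -, h2⟩ := tor_aux EE1 rt1_lt (ph1 k) (sg := sg1) (fun hij c => ph1_tv k hij c) h
  refine dg_of_dconj (dl := dl) fun B => hinj ?_
  rw [← h2, map_mul, map_mul, map_inv]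

/-- **(T2)** for the second factor -/
theorem dg_of_mem2 (hinj : Function.Injective (ph2 k)) {A : SpecialLinearGroup (Fin 5) k}
    (h : ph2 k A ∈ TT chevE8 k) : IsDg A := by
  obtain ⟨dl, -, h2⟩ := tor_aux EE2 rt2_lt (ph2 k) (sg := sg2) (fun hij c => ph2_tv k hij c) h
  refine dg_of_dconj (dl := dl) fun B => hinj ?_
  rw [← h2, map_mul, map_mul, map_inv]

end

end Cfsg.Agent.H988.E8
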